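import Cfsg.Agent.Lib.CT.WC
import Cfsg.Agent.Lib.Inv.MaxClass

/-! The normal subgroup `J ⟨t⟩` of the centralizer of `z`. -/

set_option autoImplicit false
set_option linter.unusedSectionVars false

namespace Cfsg.Lib.CT

open Subgroup Cfsg.Lib.BG Cfsg.Lib.GW Cfsg.Lib.Transfer Cfsg.Lib.Inv
open scoped Cfsg.Lib.Transfer

variable {G : Type*} [Group G] [Finite G] {J K L M N P S : Subgroup G}
  {a b c e g n q s t u v w x y z : G} {F : G → Subgroup G}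

/-- `x` lies in a normal subgroup whose Sylow 2-subgroups have a unique involution. -/
def JX (M S : Subgroup G) (x z : G) : Prop :=
  ∃ J, Nml J M ∧ x ∈ J ∧ ∀ v ∈ S, v ∈ J → v * v = 1 → v = 1 ∨ v = z

theorem fix_of_odd (ho : Odd (orderOf n)) (hw : Tw w) (c : n ∈ 𝐂[w]) (e : n * a * n⁻¹ = a * w) :
    w = 1 := by
  have k : ∀ k : ℕ, n ^ k * a * (n ^ k)⁻¹ = a * w ^ k := fun k => by
    induction k with
    | zero => simp
    | succ k ih =>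
      calc _ = n * (n ^ k * a * (n ^ k)⁻¹) * n⁻¹ := by rw [pow_succ']; group
        _ = n * a * n⁻¹ * (n * w * n⁻¹) ^ k := by rw [ih, conj_pow]; group
        _ = _ := by rw [e, cj_eq c, pow_succ', mul_assoc]
  have := k (orderOf n)
  rw [pow_orderOf_eq_one, one_mul, inv_one, mul_one, left_eq_mul] at this
  exact tw_eq_one hw (ho.of_dvd_nat (orderOf_dvd_of_pow_eq_one this))

theorem RI.cent_le (h : RI S z F) (hu : IsConj z u) (uz : u ≠ z)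
    (un : ∀ v ∈ S, v ∈ J → v * v = 1 → v = 1 ∨ v = z) (cS : c ∈ S) (cJ : c ∈ J) (cu : c ∈ 𝐂[u]) :
    c ∈ zpowers z := by
  by_cases c1 : c = 1
  · simp [c1]
  obtain ⟨k, hk⟩ := exists_inv_pow (tw_of_mem h.syl.pgroup cS) c1
  have e := (un _ (pow_mem cS _) (pow_mem cJ _) (mul_self_of_orderOf hk)).resolve_left
    (ne_one_of_orderOf hk)
  rcases k with _ | k
  · rw [← e]; simp
  · refine absurd ?_ (h.not_mem hu (.refl z) uz.symm)
    rw [← e, pow_succ, pow_mul, pow_two]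
    exact h.sq hu (pow_mem cu _)

structure ST (S : Subgroup G) (z : G) (F : G → Subgroup G) (t x : G) (J : Subgroup G) : Prop where
  ri : RI S z F
  wc : WC 𝐂[z] S t x
  ht : IsConj z t
  tz : t ≠ z
  zx : z ∈ zpowers x
  DX : ∀ w ∈ zpowers x, IsConj z (t * w)
  XD : ∀ u, IsConj z u → u ∈ S → u ≠ z → t * u ∈ zpowers x
  nml : Nml J 𝐂[z]
  xJ : x ∈ J
  QF : S ⊓ J ≤ F z
  un : ∀ v ∈ S, v ∈ J → v * v = 1 → v = 1 ∨ v = z
  cyc : ∀ q ∈ S, q ∈ J → t * q * t⁻¹ = q⁻¹ → q ∈ zpowers x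
  com : ∀ g ∈ 𝐂[z], t * g * t⁻¹ * g⁻¹ ∈ J

theorem RI.exists_ST (h : RI S z F) (ht : IsConj z t) (tS : t ∈ S) (tz : t ≠ z)
    (hJ : ∀ x, WC 𝐂[z] S t x → z ∈ zpowers x → JX 𝐂[z] S x z) : ∃ x J, ST S z F t x J := by
  obtain ⟨x, wc, zx, xF, DX, XD⟩ := h.exists_WC ht tS tz
  obtain ⟨J0, n0, x0, u0⟩ := hJ x wc zx
  have tF := h.not_mem (.refl z) ht tz
  obtain ⟨J, nJ, xJ, QF, un, cyc⟩ : ∃ J, Nml J 𝐂[z] ∧ x ∈ J ∧ S ⊓ J ≤ F z ∧
      (∀ v ∈ S, v ∈ J → v * v = 1 → v = 1 ∨ v = z) ∧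
      ∀ q ∈ S, q ∈ J → t * q * t⁻¹ = q⁻¹ → q ∈ zpowers x := by
    have n1 := n0.inf (h.nml (.refl z))
    have x1 : x ∈ J0 ⊓ F z := ⟨x0, xF⟩
    have u1 : ∀ v ∈ S, v ∈ J0 ⊓ F z → v * v = 1 → v = 1 ∨ v = z := fun v hv e => u0 v hv e.1
    by_cases cyc : ∀ q ∈ S, q ∈ J0 ⊓ F z → t * q * t⁻¹ = q⁻¹ → q ∈ zpowers x
    · exact ⟨_, n1, x1, inf_le_right.trans inf_le_right, u1, cyc⟩
    generalize J0 ⊓ F z = J at n1 x1 u1 cyc
    push Not at cyc
    obtain ⟨q, qS, qJ, qi, qx⟩ := cyc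
    have XJ : zpowers x ≤ J := zpowers_le.2 x1
    have tc : ∀ p ∈ S, ∃ v ∈ zpowers x, p * t * p⁻¹ = t * v := fun p hp => by
      simpa using wc.refl (one_mem _) (h.cen hp) (by
        simpa using mul_mem (mul_mem hp tS) (inv_mem hp))
    have qt : ∀ i : ℤ, q ^ i * t * (q ^ i)⁻¹ = t * (q * q) ^ (-i) := fun i => by
      rw [zpow_mul_of_inv qi, ← pow_two, ← zpow_natCast, ← zpow_mul]; group
    have q2 : q * q ∈ zpowers x := by
      obtain ⟨v, hv, e⟩ := tc q qS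
      have := qt 1
      rw [zpow_one, e, mul_right_inj] at this
      rwa [this, zpow_neg_one, inv_mem_iff] at hv
    have xq : x ∈ zpowers (q * q) := by
      obtain ⟨k, hk⟩ := q2
      obtain ⟨i, rfl⟩ | ho := Int.even_or_odd k
      · have xi := zpow_mem (mem_zpowers x) i
        refine absurd ((mul_mem_cancel_right (inv_mem xi)).1 (zpowers_le.2 zx (h.cent_le ht tz u1
          (mul_mem qS (inv_mem (wc.XS xi))) (mul_mem qJ (inv_mem (XJ xi)))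
          (mem_cent1_symm (cent_of_cj ?_))))) qx
        calc _ = t * q * t⁻¹ * (t * x ^ i * t⁻¹)⁻¹ := by group
          _ = q⁻¹ * (x ^ (i + i)) * (x ^ i)⁻¹ := by rw [qi, wc.inv' xi]; group
          _ = _ := by rw [show x ^ (i + i) = q * q from hk]; group
      · exact (show x ^ k = q * q from hk) ▸ mem_zpowers_odd wc.tw ho
    have xq' : zpowers x ≤ zpowers q :=
      zpowers_le.2 (zpowers_le.2 (mul_mem (mem_zpowers q) (mem_zpowers q)) xq)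
    have Qq : S ⊓ J = zpowers q := le_antisymm (fun p hp => by
      obtain ⟨v, hv, e⟩ := tc p hp.1
      obtain ⟨i, rfl⟩ := zpowers_le.2 xq hv
      have qi := zpow_mem (mem_zpowers q) (-i)
      refine (mul_mem_cancel_left (inv_mem qi)).1 (xq' (zpowers_le.2 zx (h.cent_le ht tz u1
        (mul_mem (inv_mem (zpow_mem qS _)) hp.1) (mul_mem (inv_mem (zpow_mem qJ _)) hp.2)
        (cent_of_cj ?_))))
      have := qt (-i)
      rw [neg_neg, ← e] at this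
      calc _ = (q ^ (-i))⁻¹ * (p * t * p⁻¹) * q ^ (-i) := by group
        _ = _ := by rw [← this]; group) (zpowers_le.2 ⟨qS, qJ⟩)
    have hQ : Syl 2 (zpowers q) J := Qq ▸ h.sylH.inf_nml n1
    have nO := n1.pcore {2}ᶜ
    have xO : zpowers x ≤ 𝐍(Od J) := XJ.trans (Od_nml J).norm
    have e1 : S ⊓ (Od J ⊔ zpowers x) ≤ zpowers x := by
      rw [inf_comm, modular_right wc.XS xO, (pcore_pi _ J).inf_eq_bot (by simpa using h.syl.pi),
        bot_sup_eq]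
    refine ⟨Od J ⊔ zpowers x, ⟨sup_le nO.le (wc.XS.trans h.cen), fun g hg =>
      mem_normalizer_of_conj_le ?_⟩, mem_sup_right (mem_zpowers x), e1.trans (zpowers_le.2 xF),
      fun v hv e vv => cyc_inv (e1 ⟨hv, e⟩) zx h.z2 vv, fun p hp e _ => e1 ⟨hp, e⟩⟩
    rw [conj_sup, nO.conj_eq hg, conj_zpowers]
    refine sup_le le_sup_left (zpowers_le.2 ?_)
    obtain ⟨m, hm, e⟩ := lift_elt hQ (Od_nml J) (tw_conj wc.tw g)
      (le_Od_sup hQ inferInstance (conj_mem_of_norm (n1.norm hg) x1))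
    have e2 := Misc.mem_zpowers_of_orderOf_dvd_of_cyclic inferInstance e (xq' (mem_zpowers x))
      (by rw [orderOf_conj', orderOf_conj'])
    simpa [mul_assoc] using mul_mem (mul_mem (inv_mem (mem_sup_left hm)) (mem_sup_right e2))
      (mem_sup_left (T := zpowers x) hm)
  have XJ : zpowers x ≤ J := zpowers_le.2 xJ
  obtain ⟨J', n', e1, e2, e3⟩ := zrel h.sylH nJ tS (fun e => tF (QF ⟨tS, e⟩)) (by simp [wc.t2])
    fun g hg e => by
      rw [inv_eq_of_mul_self wc.t2]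
      exact XJ (by simpa using wc.wc 1 (one_mem _) g hg (by simpa using e))
  exact ⟨x, J', h, wc, ht, tz, zx, DX, XD, n', e1 xJ, (le_inf inf_le_left e2).trans QF,
    fun v hv e => un v hv (e2 ⟨hv, e⟩), fun v hv e => cyc v hv (e2 ⟨hv, e⟩), e3⟩

namespace ST
variable (h : ST S z F t x J)
include h

theorem XJ : zpowers x ≤ J := zpowers_le.2 h.xJ
theorem tH : t ∈ 𝐂[z] := h.ri.cen h.wc.tS
theorem tF : t ∉ F z := h.ri.not_mem (.refl z) h.ht h.tz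
theorem tN : zpowers t ≤ 𝐍(J) := zpowers_le.2 (h.nml.norm h.tH)
theorem tJ : t ∈ J ⊔ zpowers t := mem_sup_right (mem_zpowers t)
theorem zJ : z ∈ J ⊔ zpowers t := mem_sup_left (h.XJ h.zx)

theorem nml' : Nml (J ⊔ zpowers t) 𝐂[z] :=
  ⟨sup_le h.nml.le (zpowers_le.2 h.tH), fun g hg => mem_normalizer_of_conj_le (by
    rw [conj_sup, h.nml.conj_eq hg, conj_zpowers]
    exact sup_le le_sup_left (zpowers_le.2 (by
      simpa [mul_assoc] using mul_mem_sup (inv_mem (h.com g hg)) (mem_zpowers t))))⟩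

theorem mem_J (hs : s ∈ J ⊔ zpowers t) : s ∈ J ∨ t * s ∈ J := by
  obtain ⟨v, hv, j, hj, rfl⟩ := (mem_sup_right_norm h.tN).1 (sup_comm J _ ▸ hs)
  rcases (mem_zp2 h.wc.t2).1 hv with rfl | rfl
  · exact .inl (by simpa using hj)
  · exact .inr (by simpa [← mul_assoc, h.wc.t2] using hj)

theorem D_S (hu : IsConj z u) (uS : u ∈ S) : u ∈ J ⊔ zpowers t := by
  by_cases e : u = z
  · exact e ▸ h.zJ
  · exact (mul_mem_cancel_left h.tJ).1 (mem_sup_left (h.XJ (h.XD u hu uS e)))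

theorem D_H (hu : IsConj z u) (uH : u ∈ 𝐂[z]) : u ∈ J ⊔ zpowers t := by
  obtain ⟨k, hk, e⟩ := syl_conj1 h.ri.sylH (h.ri.tw hu) uH
  simpa [mul_assoc] using conj_mem_of_norm' (h.nml'.norm hk) (h.D_S (isConj_cj hu k) e)

theorem inv_D (vS : v ∈ S) (vJ : v ∈ J ⊔ zpowers t) (vv : v * v = 1) (v1 : v ≠ 1) : IsConj z v := by
  rcases h.mem_J vJ with e | e
  · exact (h.un v vS e vv).resolve_left v1 ▸ .refl _
  · have := h.DX _ (h.cyc _ (mul_mem h.wc.tS vS) e (pair_left_inv h.wc.t2 vv))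
    rwa [← mul_assoc, h.wc.t2, one_mul] at this

theorem sylT : Syl 2 (S ⊓ (J ⊔ zpowers t)) (J ⊔ zpowers t) := h.ri.sylH.inf_nml h.nml'

theorem fusion [hN : N.Normal] (ho : ∀ g, Odd (orderOf g) → g ∈ N) (hg : g ∈ N) (hy : Tw y)
    (yH : y ∈ 𝐂[z]) (yH' : g * y * g⁻¹ ∈ 𝐂[z]) :
    ∃ k ∈ N, k ∈ 𝐂[z] ∧ k * y * k⁻¹ * (g * y * g⁻¹)⁻¹ ∈ J ⊔ zpowers t := by
  have hy' := tw_conj hy g
  have u0 := cj_cent (mem_cent1_symm yH) g
  obtain ⟨y', ey⟩ : ∃ y', y' = g * y * g⁻¹ := ⟨_, rfl⟩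
  rw [← ey] at hy' u0 yH' ⊢
  obtain ⟨P, hP, zP⟩ := Syl.exists_ge (h.ri.tw (.refl z)) (zpowers_le.2 (mem_cent1_symm yH'))
  obtain ⟨c, hc, e⟩ := syl_conj1 hP (h.ri.tw (isConj_cj (.refl z) g)) u0
  have hc' := le_sup_of_odd (K := 𝐂[y'] ⊓ N) hP (fun g h1 h2 => mem_inf.2 ⟨h1, ho g h2⟩) hc
  rw [sup_comm] at hc'
  obtain ⟨p, hp, d, hd, rfl⟩ := (mem_sup_right_norm (hP.le.trans
    (norm_inf (le_norm _) le_normalizer_of_normal))).1 hc'
  rw [mem_inf] at hd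
  have hu : IsConj z (d * g * z * (d * g)⁻¹) := isConj_cj (.refl z) _
  have uP : d * g * z * (d * g)⁻¹ ∈ P := by
    simpa [mul_assoc] using mul_mem (mul_mem (inv_mem hp) e) hp
  obtain ⟨u, eu⟩ : ∃ u, u = d * g * z * (d * g)⁻¹ := ⟨_, rfl⟩
  rw [← eu] at hu uP
  obtain ⟨k, -, hk⟩ := h.ri.syl.exists_le_conj hP.pgroup le_top
  have hw : IsConj z (k * z * k⁻¹) := isConj_cj (.refl z) _
  have Pw : P ≤ 𝐂[k * z * k⁻¹] := hk.trans ((conj_mono k h.ri.cen).trans (conj_cent1 k z).le)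
  generalize k * z * k⁻¹ = w at hw Pw
  have yw : y' ∈ 𝐂[w] := Pw (hP.ge_of_norm_p' (zpowers_le.2 (self_mem_cent1 y')) hy'
    (norm_of_cent (cent_symm (by rw [cent_zpowers]; exact hP.le))) (mem_zpowers y'))
  have wz := Pw (zP (mem_zpowers z))
  obtain ⟨n, n1, n2, n3⟩ := h.ri.move hu hw (mem_cent1.1 (Pw uP)).symm hy'
    (mem_cent1_symm (hP.le uP)) yw
  obtain ⟨m, m1, m2, m3⟩ := h.ri.move hw (.refl z) (mem_cent1.1 wz) hy' yw yH'
  refine ⟨m * n * (d * g), mul_mem (mul_mem (ho _ m1) (ho _ n1)) (mul_mem hd.2 hg),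
    cent_of_cj ?_, ?_⟩
  · calc _ = m * (n * u * n⁻¹) * m⁻¹ := by rw [eu]; group
      _ = _ := by rw [n2, m2]
  · have a1 := mem_conj.1 (n3 (m⁻¹ ⋆ (J ⊔ zpowers t)) (mem_conj.2 (h.D_H
      (by rw [inv_inv]; exact isConj_cj hu m) (by simpa [m2] using cj_cent (Pw uP) m))) (mem_conj.2 (by
        simpa [m2] using h.zJ)))
    have a2 := m3 _ (h.D_H hw (mem_cent1_symm wz)) h.zJ
    have e : m * n * (d * g) * y * (m * n * (d * g))⁻¹ = m * (n * (d * y' * d⁻¹) * n⁻¹) * m⁻¹ := by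
      rw [ey]; group
    rw [e, cj_eq hd.1]
    simpa [mul_assoc] using mul_mem a1 a2

theorem odd_cent (hn : n ∈ 𝐂[z]) (hT : n ∈ 𝐍(S ⊓ (J ⊔ zpowers t))) (ho : Odd (orderOf n)) :
    n ∈ 𝐂(S ⊓ (J ⊔ zpowers t)) := by
  have XT : zpowers x ≤ S ⊓ (J ⊔ zpowers t) := le_inf h.wc.XS (h.XJ.trans le_sup_left)
  have tT : t ∈ S ⊓ (J ⊔ zpowers t) := ⟨h.wc.tS, h.tJ⟩
  have k : ∀ w ∈ zpowers x, ∃ v ∈ zpowers x, n * (t * w) * n⁻¹ = t * v := fun w hw =>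
    h.wc.refl hw hn (conj_mem_of_norm hT (mul_mem tT (XT hw))).1
  obtain ⟨v, hv, e⟩ := k 1 (one_mem _)
  obtain ⟨v', hv', e'⟩ := k x (mem_zpowers x)
  have c1 := mem_centralizer_of_odd_of_isCyclic h.wc.tw inferInstance (mem_normalizer_of_conj_le (by
    rw [conj_zpowers, zpowers_le,
      show n * x * n⁻¹ = (n * (t * 1) * n⁻¹)⁻¹ * (n * (t * x) * n⁻¹) by group, e, e']
    simpa [mul_assoc] using mul_mem (inv_mem hv) hv')) ho
  rw [mul_one] at e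
  rw [fix_of_odd ho (tw_of_mem h.wc.tw hv) (cent_le_cent1 hv c1) e, mul_one] at e
  have c2 : ∀ q ∈ S, q ∈ J → n ∈ 𝐂[q] := fun q qS qJ => by
    obtain ⟨w, hw, e1⟩ := h.wc.refl (one_mem _) (h.ri.cen (inv_mem qS))
      (mul_mem (mul_mem (inv_mem qS) (mul_mem h.wc.tS (one_mem _))) (inv_mem (inv_mem qS)))
    have q1 := (conj_mem_of_norm hT (show q ∈ _ from ⟨qS, mem_sup_left qJ⟩)).1
    have q2 := conj_mem_of_norm (h.nml.norm hn) qJ
    have e2 : (n * q * n⁻¹)⁻¹ * t * (n * q * n⁻¹) = q⁻¹ * t * q := by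
      calc _ = n * (q⁻¹ * (n⁻¹ * t * n⁻¹⁻¹ * 1) * q⁻¹⁻¹) * n⁻¹ := by group
        _ = n * t * n⁻¹ * (n * w * n⁻¹) := by rw [cj_eq (inv_mem (cent_of_cj e)), e1]; group
        _ = _ := by rw [e, cj_eq (cent_le_cent1 hw c1), ← e1]; group
    have q3 := h.ri.cent_le h.ht h.tz h.un (mul_mem qS (inv_mem q1)) (mul_mem qJ (inv_mem q2))
      (cent_of_cj (by
        calc _ = q * ((n * q * n⁻¹)⁻¹ * t * (n * q * n⁻¹)) * q⁻¹ := by group
          _ = _ := by rw [e2]; group))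
    rcases (mem_zp2 h.ri.zz).1 q3 with q3 | q3
    · exact cent_of_cj (mul_inv_eq_one.1 q3).symm
    · refine absurd (fix_of_odd ho (h.ri.tw (.refl z)) hn (a := q) ?_) (ne_one_of_orderOf h.ri.z2)
      rw [mem_cent1.1 (h.ri.cen qS), eq_comm, ← inv_eq_of_mul_self h.ri.zz, ← q3]; group
  refine mem_cent.2 fun s hs => (mem_cent1.1 ?_).symm
  rcases h.mem_J hs.2 with q | q
  · exact c2 s hs.1 q
  · exact mem_cent1_symm ((mul_mem_cancel_left (mem_cent1_symm (cent_of_cj e))).1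
      (mem_cent1_symm (c2 _ (mul_mem h.wc.tS hs.1) q)))

end ST

end Cfsg.Lib.CT
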