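import Cfsg.Agent.Lib.CT.RI

/-! A coset `tX` of reflections closed under fusion. -/

set_option autoImplicit false
set_option linter.unusedSectionVars false

namespace Cfsg.Lib.CT

open Subgroup Cfsg.Lib.BG Cfsg.Lib.GW Cfsg.Lib.Transfer Cfsg.Lib.Inv
open scoped Cfsg.Lib.Transfer

variable {G : Type*} [Group G] [Finite G] {G' : Type*} [Group G'] [Finite G']
  {J L M P S : Subgroup G} {a b c e g s t u v w x y z : G} {F : G → Subgroup G}

theorem zp_comm (ha : a ∈ zpowers x) (hb : b ∈ zpowers x) : a * b = b * a := by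
  obtain ⟨i, rfl⟩ := ha
  obtain ⟨j, rfl⟩ := hb
  exact zpow_mul_comm x i j

theorem mem_zp_subOf (hx : x ∈ M) {a : M} : a ∈ zpowers (⟨x, hx⟩ : M) ↔ a.1 ∈ zpowers x :=
  ⟨fun ⟨k, e⟩ => ⟨k, by rw [← e]; rfl⟩, fun ⟨k, e⟩ => ⟨k, Subtype.ext e⟩⟩

structure WC (M S : Subgroup G) (t x : G) : Prop where
  syl : Syl 2 S M
  tS : t ∈ S
  xS : x ∈ S
  t2 : t * t = 1
  tX : t ∉ zpowers x
  inv : t * x * t⁻¹ = x⁻¹
  wc : ∀ w ∈ zpowers x, ∀ g ∈ M, g * (t * w) * g⁻¹ ∈ S → t * (g * (t * w) * g⁻¹) ∈ zpowers x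

namespace WC
variable (h : WC M S t x)
include h

theorem XS : zpowers x ≤ S := zpowers_le.2 h.xS

theorem tw : Tw x := tw_of_mem h.syl.pgroup h.xS

theorem inv' (hw : w ∈ zpowers x) : t * w * t⁻¹ = w⁻¹ := by
  obtain ⟨k, rfl⟩ := hw
  simp only [← conj_zpow, h.inv, inv_zpow]

theorem refl_inv (hw : w ∈ zpowers x) (hy : y ∈ zpowers x) : t * w * y * (t * w)⁻¹ = y⁻¹ := by
  rw [mul_assoc t, zp_comm hw hy, ← h.inv' hy]; group

theorem refl_sq (hw : w ∈ zpowers x) : t * w * (t * w) = 1 := by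
  have := h.inv' hw
  rw [inv_eq_of_mul_self h.t2] at this
  rw [← mul_assoc, this, inv_mul_cancel]

theorem refl (hw : w ∈ zpowers x) (hg : g ∈ M) (e : g * (t * w) * g⁻¹ ∈ S) :
    ∃ v ∈ zpowers x, g * (t * w) * g⁻¹ = t * v :=
  ⟨_, h.wc w hw g hg e, by rw [← mul_assoc t t, h.t2, one_mul]⟩

theorem norm : S ≤ 𝐍(zpowers x) := fun s hs => mem_normalizer_of_conj_le (by
  have k : ∀ a ∈ S, s * a * s⁻¹ ∈ S := fun a ha => mul_mem (mul_mem hs ha) (inv_mem hs)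
  obtain ⟨v, hv, e⟩ := h.refl (one_mem _) (h.syl.le hs) (k _ (mul_mem h.tS (one_mem _)))
  obtain ⟨v', hv', e'⟩ := h.refl (mem_zpowers x) (h.syl.le hs) (k _ (mul_mem h.tS h.xS))
  rw [conj_zpowers, zpowers_le, show s * x * s⁻¹ = (s * (t * 1) * s⁻¹)⁻¹ * (s * (t * x) * s⁻¹) by group,
    e, e']
  simpa [mul_assoc] using mul_mem (inv_mem hv) hv')

theorem norm' (hy : y ∈ zpowers x) : S ≤ 𝐍(zpowers y) :=
  h.norm.trans (norm_le_of_le_cyclic inferInstance (zpowers_le.2 hy))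

theorem cent (hz : z ∈ zpowers x) (z2 : orderOf z = 2) : S ≤ 𝐂[z] := fun s hs => by
  have zz := mul_self_of_orderOf z2
  refine cent_of_cj (((mem_zp2 zz).1 (conj_mem_of_norm (h.norm' hz hs) (mem_zpowers z))).resolve_left ?_)
  simpa using ne_one_of_orderOf z2

theorem ex (hw : w ∈ zpowers x) (hy : y ∈ zpowers x) (hg : g ∈ M)
    (e : g * (t * w) * g⁻¹ ∈ 𝐂[y]) : y * y = 1 := by
  obtain ⟨n, hn, e1⟩ := syl_conj1 (h.syl.of_le (le_inf h.syl.le (h.norm' hy)) inf_le_left)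
    (tw_conj (tw_inv2 (h.refl_sq hw)) g) (mem_inf.2 ⟨mul_mem (mul_mem hg (h.syl.le (mul_mem h.tS
      (h.XS hw)))) (inv_mem hg), cent_le_norm _ (by rwa [cent_zpowers])⟩)
  rw [mem_inf] at hn
  obtain ⟨v, hv, e2⟩ := h.refl hw (mul_mem hn.1 hg) (by simpa [mul_assoc] using e1)
  have e3 := h.refl_inv hv (zpowers_le.2 hy (conj_mem_of_norm hn.2 (mem_zpowers y)))
  rw [← e2, cj_eq (by simpa [mul_assoc] using cj_cent e n)] at e3
  have e4 : y = y⁻¹ := by simpa [mul_assoc] using e3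
  nth_rewrite 1 [e4]; simp

theorem ex2 (hz : z ∈ zpowers x) (z2 : orderOf z = 2) (hw : w ∈ zpowers x) (hg : g ∈ M)
    (e1 : g * z * g⁻¹ ∈ 𝐂[z]) (e2 : g * z * g⁻¹ ∈ 𝐂[t * w]) : g * z * g⁻¹ = z := by
  have zz := mul_self_of_orderOf z2
  have tw' := mul_mem h.tS (h.XS hw)
  have k : ∀ a ∈ S, g * z * g⁻¹ ∈ 𝐂[a] → g⁻¹ * a * g⁻¹⁻¹ ∈ M ⊓ 𝐂[z] := fun a ha e =>
    mem_inf.2 ⟨mul_mem (mul_mem (inv_mem hg) (h.syl.le ha)) (inv_mem (inv_mem hg)), by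
      simpa [mul_assoc] using cj_cent (mem_cent1_symm e) g⁻¹⟩
  obtain ⟨n, hn, a1, a2⟩ := syl_conj2 (h.syl.of_le (le_inf h.syl.le (h.cent hz z2)) inf_le_left)
    (tw_conj (tw_inv2 (h.refl_sq hw)) g⁻¹) (tw_conj (tw_inv2 zz) g⁻¹)
    (mem_cent1.1 (cj_cent (h.cent hz z2 tw') _)) (k _ tw' e2) (k _ (h.XS hz) e1)
  rw [mem_inf] at hn
  have m := mul_mem hn.1 (inv_mem hg)
  obtain ⟨v, hv, b1⟩ := h.refl hw m (by simpa [mul_assoc] using a1)
  obtain ⟨v', hv', b2⟩ := h.refl (mul_mem hw hz) m (by simpa [mul_assoc] using mul_mem a1 a2)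
  have b3 : n * g⁻¹ * z * (n * g⁻¹)⁻¹ = v⁻¹ * v' := by
    calc _ = (n * g⁻¹ * (t * w) * (n * g⁻¹)⁻¹)⁻¹ * (n * g⁻¹ * (t * (w * z)) * (n * g⁻¹)⁻¹) := by group
      _ = _ := by rw [b1, b2]; group
  have b4 := (cyc_inv (b3 ▸ mul_mem (inv_mem hv) hv') hz z2 (mul_self_of_orderOf
    ((orderOf_conj' _ _).trans z2))).resolve_left (ne_one_of_orderOf ((orderOf_conj' _ _).trans z2))
  exact cj_eq (by simpa using mul_mem (inv_mem (cent_of_cj b4)) hn.2)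

theorem sq_eq (hz : z ∈ zpowers x) (z2 : orderOf z = 2) (ha : a ∈ zpowers x) (hb : b ∈ zpowers x)
    (e : a * a = b * b) : a = b ∨ a = z * b := by
  refine (cyc_inv (mul_mem ha (inv_mem hb)) hz z2 ?_).imp mul_inv_eq_one.1 mul_inv_eq_iff_eq_mul.1
  rw [mul_assoc, ← mul_assoc b⁻¹, zp_comm (inv_mem hb) ha, ← mul_assoc, ← mul_assoc, e]; group

theorem mem_J (hz : z ∈ zpowers x) (z2 : orderOf z = 2) (hJ : Nml J M)
    (hu : ∀ v ∈ S, v ∈ J → v * v = 1 → v = 1 ∨ v = z) (hy : y ∈ zpowers x) (yy : y * y = z)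
    (yJ : y ∈ J) (hg : g ∈ M) (h1 : g * y * g⁻¹ ∈ S) (h2 : g * y * g⁻¹ ∉ zpowers x) : x ∈ J := by
  have zz := mul_self_of_orderOf z2
  have z1 := ne_one_of_orderOf z2
  have h3 := conj_mem_of_norm (hJ.norm hg) yJ
  have h4 : g * y * g⁻¹ * (g * y * g⁻¹) = z := by
    have e : g * y * g⁻¹ * (g * y * g⁻¹) = g * z * g⁻¹ := by rw [← yy]; group
    refine (hu _ (mul_mem h1 h1) (mul_mem h3 h3) ?_).resolve_left ?_
    · rw [e]; exact mul_self_of_orderOf ((orderOf_conj' _ _).trans z2)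
    · rw [e]; simpa using z1
  have h5 : ∀ s ∈ zpowers x, g * y * g⁻¹ ∉ 𝐂[t * s] := fun s hs e => z1 (yy ▸ h.ex hs hy (inv_mem hg)
    (by simpa [mul_assoc] using cj_cent (mem_cent1_symm e) g⁻¹))
  generalize g * y * g⁻¹ = q at h1 h2 h3 h4 h5
  have h6 : q * y * q⁻¹ = z * y := by
    refine (h.sq_eq hz z2 (conj_mem_of_norm (h.norm h1) hy) hy ?_).resolve_left fun e => h2 ?_
    · rw [yy, ← cj_eq (h.cent hz z2 h1), ← yy]; group
    · have e' := mul_inv_eq_iff_eq_mul.1 e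
      rcases hu _ (mul_mem h1 (h.XS hy)) (mul_mem h3 yJ) (by
        rw [mul_assoc, ← mul_assoc y, ← e', mul_assoc q, yy, ← mul_assoc, h4, zz]) with e | e
      · rw [mul_eq_one_iff_eq_inv.1 e]; exact inv_mem hy
      · rw [eq_mul_inv_of_mul_eq e]; exact mul_mem hz (inv_mem hy)
  obtain ⟨k, hk⟩ := conj_mem_of_norm (h.norm h1) (mem_zpowers x)
  have hk' : ∀ i : ℤ, q * x ^ i * q⁻¹ = (x ^ i) ^ k := fun i => by
    rw [← conj_zpow, ← hk, ← zpow_mul, ← zpow_mul, mul_comm]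
  have y4 : orderOf y = 2 ^ (1 + 1) := orderOf_eq_prime_pow (by simpa [pow_two, yy] using z1)
    (by rw [show 2 ^ (1 + 1) = 2 + 2 from rfl, pow_add, pow_two, yy, zz])
  obtain ⟨j, hj⟩ : ((2 ^ (1 + 1) : ℕ) : ℤ) ∣ k + 1 := by
    rw [← y4, orderOf_dvd_iff_zpow_eq_one]
    obtain ⟨m, rfl⟩ := hy
    rw [zpow_add_one, ← hk', h6, mul_assoc, yy, zz]
  obtain ⟨w, ⟨i, rfl⟩, hw⟩ := h.refl (one_mem _) (h.syl.le h1)
    (mul_mem (mul_mem h1 (mul_mem h.tS (one_mem _))) (inv_mem h1))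
  rw [mul_one] at hw
  obtain ⟨i, rfl⟩ | ho := Int.even_or_odd i
  · obtain ⟨l, hl⟩ := mem_zpowers_odd (tw_of_mem h.tw (zpow_mem (mem_zpowers x) 2))
      (o := 1 - 2 * j) ⟨-j, by ring⟩
    refine absurd (cent_of_cj ?_) (h5 (x ^ (l * i)) (zpow_mem (mem_zpowers x) _))
    calc _ = q * t * q⁻¹ * (q * x ^ (l * i) * q⁻¹) := by group
      _ = t * ((x ^ (2 : ℤ)) ^ i * (x ^ (l * i)) ^ k) := by rw [hw, hk']; group
      _ = _ := by
        rw [← hl]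
        simp only [← zpow_mul, ← zpow_add]
        congr 2
        push_cast at hj
        linear_combination l * i * hj
  · refine zpowers_le.2 ?_ (mem_zpowers_odd h.tw ho)
    have := mul_mem (conj_mem_of_norm' (hJ.norm (h.syl.le h.tS)) h3) (inv_mem h3)
    rwa [show t⁻¹ * q * t * q⁻¹ = t⁻¹ * (q * t * q⁻¹) by group, hw, inv_mul_cancel_left] at this

theorem sub (h1 : S ≤ L) (h2 : L ≤ M) : WC L S t x :=
  ⟨h.syl.of_le h1 h2, h.tS, h.xS, h.t2, h.tX, h.inv, fun w hw g hg => h.wc w hw g (h2 hg)⟩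

theorem subOf : WC ⊤ (S.subgroupOf M) ⟨t, h.syl.le h.tS⟩ ⟨x, h.syl.le h.xS⟩ :=
  ⟨subgroupOf_self M ▸ (Hall.subgroupOf_iff le_rfl h.syl.le).2 h.syl, h.tS, h.xS, Subtype.ext h.t2,
    fun e => h.tX ((mem_zp_subOf _).1 e), Subtype.ext h.inv, fun w hw g _ e =>
      (mem_zp_subOf _).2 (h.wc w ((mem_zp_subOf _).1 hw) g g.2 e)⟩

end WC

theorem WC.map (h : WC ⊤ S t x) {f : G →* G'} (hf : Function.Surjective f)
    (hk : S ⊓ f.ker ≤ zpowers x) : WC ⊤ (S.map f) (f t) (f x) := by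
  refine ⟨map_top_of_surjective f hf ▸ h.syl.map f, mem_map_of_mem f h.tS, mem_map_of_mem f h.xS,
    by rw [← map_mul, h.t2, map_one], fun e => h.tX ?_, by rw [← map_inv, ← map_inv, ← h.inv]; simp,
    fun w hw g _ e => ?_⟩
  · rw [← MonoidHom.map_zpowers] at e
    obtain ⟨w, hw, e⟩ := e
    simpa using mul_mem (hk (mem_inf.2 ⟨mul_mem h.tS (inv_mem (h.XS hw)), by
      simp [MonoidHom.mem_ker, e]⟩)) hw
  · rw [← MonoidHom.map_zpowers] at hw ⊢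
    obtain ⟨w, hw, rfl⟩ := hw
    rw [← map_mul] at e ⊢
    obtain ⟨k, h1, h2⟩ := lift_map hf h.syl (tw_inv2 (h.refl_sq hw)) g e
    rw [← h2, ← map_mul]
    exact mem_map_of_mem f (h.wc w hw k trivial h1)

namespace RI
variable (h : RI S z F)
include h

theorem mul_mem_F (ht : IsConj z t) (tS : t ∈ S) (tz : t ≠ z) (hu : IsConj z u) (uS : u ∈ S)
    (uz : u ≠ z) : t * u ∈ F z :=
  h.idx _ (h.cen tS) _ (h.cen uS) (h.not_mem (.refl z) ht tz) (h.not_mem (.refl z) hu uz)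

theorem z_mem (ht : IsConj z t) (tS : t ∈ S) (tz : t ≠ z) (hu : IsConj z u) (uS : u ∈ S)
    (uz : u ≠ z) (ne : t ≠ u) : z ∈ zpowers (t * u) := by
  have tt := h.uu ht
  obtain ⟨k, hk⟩ := exists_inv_pow (tw_of_mem h.syl.pgroup (mul_mem tS uS)) fun e =>
    ne (by rw [mul_eq_one_iff_eq_inv.1 e, inv_eq_of_mul_self (h.uu hu)])
  have cc := mul_self_of_orderOf hk
  have c1 : (t * u) ^ 2 ^ k * t = t * (t * u) ^ 2 ^ k := by
    have := conj_pow_of_inv (pair_left_inv tt (h.uu hu)) (2 ^ k)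
    rw [inv_eq_of_mul_self cc] at this
    exact (mul_inv_eq_iff_eq_mul.1 this).symm
  have c2 : IsConj z ((t * u) ^ 2 ^ k * t) := by
    rcases k with _ | k
    · rw [c1]; simpa [← mul_assoc, tt] using hu
    · have := zpow_conj_left tt (h.uu hu) (2 ^ k)
      rw [show (2 : ℤ) * 2 ^ k = ((2 ^ (k + 1) : ℕ) : ℤ) by push_cast; ring, zpow_natCast] at this
      exact this ▸ isConj_cj ht _
  have c3 := h.mul ht c2 (by simpa using ne_one_of_orderOf hk) (by rw [c1, mul_assoc, c1])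
  rw [mul_assoc, tt, mul_one] at c3
  exact h.iso _ c3 (pow_mem (h.mul_mem_F ht tS tz hu uS uz) _) ▸ npow_mem_zpowers _ _

theorem exists_WC (ht : IsConj z t) (tS : t ∈ S) (tz : t ≠ z) :
    ∃ x, WC 𝐂[z] S t x ∧ z ∈ zpowers x ∧ x ∈ F z ∧ (∀ w ∈ zpowers x, IsConj z (t * w)) ∧
      ∀ u, IsConj z u → u ∈ S → u ≠ z → t * u ∈ zpowers x := by
  have tt := h.uu ht
  have tF := h.not_mem (.refl z) ht tz
  let X : Set G := {w | IsConj z (t * w) ∧ t * w ∈ S ∧ t * w ≠ z}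
  have XS : ∀ w ∈ X, w ∈ S := fun w hw => (mul_mem_cancel_left tS).1 hw.2.1
  have XF : ∀ w ∈ X, w ∈ F z := fun w hw => by
    simpa [← mul_assoc, tt] using h.mul_mem_F ht tS tz hw.1 hw.2.1 hw.2.2
  have Xi : ∀ w ∈ X, t * w * t⁻¹ = w⁻¹ := fun w hw => by
    simpa [← mul_assoc, tt] using pair_left_inv tt (h.uu hw.1)
  have Xp : ∀ w ∈ X, ∀ v ∈ zpowers w, v ∈ X := fun w hw v hv => by
    refine ⟨?_, mul_mem tS (zpowers_le.2 (XS w hw) hv), fun e => tF ?_⟩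
    · obtain ⟨k, rfl⟩ := hv
      have e : ∀ j : ℤ, t * w ^ (2 * j) = w ^ (-j) * t * (w ^ (-j))⁻¹ := fun j => by
        rw [zpow_mul_of_inv (Xi w hw)]; group
      obtain ⟨j, rfl | rfl⟩ := Int.even_or_odd' k
      · exact e j ▸ isConj_cj ht _
      · have := isConj_cj hw.1 (w ^ (-j))
        rwa [show w ^ (-j) * (t * w) * (w ^ (-j))⁻¹ = w ^ (-j) * t * (w ^ (-j))⁻¹ * w by group,
          ← e, mul_assoc, ← zpow_add_one] at this
    · exact (mul_mem_cancel_right (zpowers_le.2 (XF w hw) hv)).1 (e ▸ h.self)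
  have Xz : z ∈ X := ⟨h.mul (.refl z) ht tz (mem_cent1.1 (h.cen tS)), mul_mem tS h.zS,
    by simpa using ne_one_of_orderOf (h.ord ht)⟩
  have Xm : ∀ w ∈ X, ∀ v ∈ X, t * w * (t * v) = w⁻¹ * v := fun w hw v hv => by
    rw [← Xi w hw, inv_eq_of_mul_self tt]; group
  have Xs : ∀ w ∈ X, ∀ v ∈ X, w * w = v * v → w⁻¹ * v ∈ zpowers z := fun w hw v hv e => by
    by_cases ne : w = v
    · simp [ne]
    obtain ⟨k, hk⟩ := Xm w hw v hv ▸ h.z_mem hw.1 hw.2.1 hw.2.2 hv.1 hv.2.1 hv.2.2 (by simpa using ne)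
    have c : w⁻¹ * v ∈ 𝐂[t] := mem_cent1_symm (cent_of_cj (by
      calc _ = (t * w * t⁻¹)⁻¹ * (t * v * t⁻¹) := by group
        _ = w⁻¹ * (w * w) * v⁻¹ := by rw [Xi w hw, Xi v hv]; group
        _ = _ := by rw [e]; group))
    obtain ⟨j, rfl⟩ | ho := Int.even_or_odd k
    · refine absurd (hk ▸ ?_) (h.not_mem ht (.refl z) tz.symm)
      simpa [zpow_add] using h.sq ht (zpow_mem c j)
    · exact hk ▸ mem_zpowers_odd (tw_of_mem h.syl.pgroup (mul_mem (inv_mem (XS w hw)) (XS v hv))) ho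
  obtain ⟨x, hx, hm⟩ := Set.exists_max_image X orderOf (Set.toFinite X) ⟨z, Xz⟩
  have zx : z ∈ zpowers x := by
    simpa [← mul_assoc, tt] using h.z_mem ht tS tz hx.1 hx.2.1 hx.2.2 fun e => by
      have := hm z Xz
      rw [left_eq_mul.1 e, h.z2, orderOf_one] at this
      omega
  have key : ∀ n, ∀ w ∈ X, orderOf w = n → w ∈ zpowers x := fun n => by
    induction n using Nat.strong_induction_on with
    | _ n ih =>
    rintro w hw rfl
    by_cases w1 : w = 1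
    · simp [w1]
    have lt : orderOf (w ^ 2) < orderOf w := by
      obtain ⟨_ | k, e⟩ := tw_ord (tw_of_mem h.syl.pgroup (XS w hw))
      · exact absurd (by simpa using e) w1
      · rw [orderOf_pow' _ two_ne_zero, e, pow_succ, Nat.gcd_eq_right (dvd_mul_left _ _)]
        exact Nat.div_lt_self (by positivity) one_lt_two
    obtain ⟨k, hk⟩ := ih _ lt _ (Xp w hw _ (npow_mem_zpowers w 2)) rfl
    obtain ⟨j, rfl⟩ | ho := Int.even_or_odd k
    · have := zpowers_le.2 zx (Xs _ (Xp x hx _ (zpow_mem (mem_zpowers x) j)) w hw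
        (by rw [← zpow_add, ← pow_two, ← hk]))
      exact (mul_mem_cancel_left (inv_mem (zpow_mem (mem_zpowers x) j))).1 this
    · have := orderOf_dvd_of_mem_zpowers (mem_zpowers_odd (tw_of_mem h.syl.pgroup (XS x hx)) ho)
      exact absurd (Nat.le_of_dvd (orderOf_pos _) (hk ▸ this)) (lt.trans_le (hm w hw)).not_ge
  have hD : ∀ u, IsConj z u → u ∈ S → u ≠ z → t * u ∈ zpowers x := fun u hu uS uz =>
    key _ _ (by rw [Set.mem_ofPred_eq, ← mul_assoc, tt, one_mul]; exact ⟨hu, uS, uz⟩) rfl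
  refine ⟨x, ⟨h.sylH, tS, XS x hx, tt, fun e => tF (XF _ (Xp x hx _ e)), Xi x hx,
    fun w hw g hg e => hD _ (isConj_cj (Xp x hx w hw).1 g) e fun e' => (Xp x hx w hw).2.2 ?_⟩,
    zx, XF x hx, fun w hw => (Xp x hx w hw).1, hD⟩
  rw [← cj_eq hg] at e'
  simpa using e'

end RI

end Cfsg.Lib.CT
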